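/-
Checks of coset tables for the kernel to evaluate, over the core library alone, with numbers forced to literals along
the way: the kernel then caches the reads of an array, and the rows of a table are read far less often.
-/
set_option autoImplicit false

namespace Cfsg.Agent.Lib.TC.Fast

/-- A conditional with one delta step at its head. -/
noncomputable def bf (c a b : Bool) : Bool := Bool.rec b a c

/-- Hand a number to a Boolean continuation, as a literal. -/
noncomputable def fb (x : Nat) (k : Nat → Bool) : Bool :=
  Nat.rec (motive := fun _ => Bool) (k 0) (fun n _ => k (Nat.succ n)) x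

/-- Hand a number to a numerical continuation, as a literal. -/
noncomputable def fn (x : Nat) (k : Nat → Nat) : Nat :=
  Nat.rec (motive := fun _ => Nat) (k 0) (fun n _ => k (Nat.succ n)) x

/-- A loop: `f (lo + i) = true` for `i < n`. -/
noncomputable def allF (f : Nat → Bool) (lo n : Nat) : Bool :=
  Nat.rec (motive := fun _ => Bool) true
    (fun i ih => bf (f (Nat.add lo i)) ih false) n

/-- Element `i` of a list of words. -/
noncomputable def wordA (l : List (List Nat)) : Nat → List Nat :=
  List.rec (motive := fun _ => Nat → List Nat) (fun _ => [])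
    (fun h _ ih i => Nat.rec (motive := fun _ => List Nat) h (fun i' _ => ih i') i) l

/-- Element `i` of a list of numbers. -/
noncomputable def numA (l : List Nat) : Nat → Nat :=
  List.rec (motive := fun _ => Nat → Nat) (fun _ => 0)
    (fun h _ ih i => Nat.rec (motive := fun _ => Nat) h (fun i' _ => ih i') i) l

/-- Walk along a word in a table. -/
noncomputable def walkF (T : Nat → Nat → Nat) (w : List Nat) : Nat → Nat :=
  List.rec (motive := fun _ => Nat → Nat) (fun i => i)
    (fun g _ ih i => Nat.rec (motive := fun _ => Nat) (ih 0) (fun n _ => ih (Nat.succ n)) (T i g)) w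

/-- Does a list of words all walk to their start? -/
noncomputable def relsF (T : Nat → Nat → Nat) (R : List (List Nat)) (i : Nat) : Bool :=
  List.rec (motive := fun _ => Bool) true
    (fun w _ ih => bf (Nat.beq (walkF T w i) i) ih false) R

/-- A jump at the end of a walk, from the name `x`. -/
noncomputable def wAjx (b m τ1 : Nat) (ih : List Nat → Nat → Nat → Bool) (y e : Nat) : Bool :=
  Bool.rec false
    (Nat.rec (motive := fun _ => Bool) (ih [] 0 y) (fun n _ => ih [] (Nat.succ n) y) (Nat.land e m))
    (Nat.ble τ1 (Nat.shiftRight e b))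

/-- A jump at the end of a walk, from the name `y`. -/
noncomputable def wAjy (b m τ1 : Nat) (ih : List Nat → Nat → Nat → Bool) (x e : Nat) : Bool :=
  Bool.rec false
    (Nat.rec (motive := fun _ => Bool) (ih [] x 0) (fun n _ => ih [] x (Nat.succ n)) (Nat.land e m))
    (Nat.ble τ1 (Nat.shiftRight e b))

/-- The end of a walk. -/
noncomputable def wAe (ep b m : Nat) (E : Nat → Nat → Nat) (τ1 : Nat) (ih : List Nat → Nat → Nat → Bool) (x y : Nat) :
    Bool :=
  Bool.rec
    (Bool.rec (wAjy b m τ1 ih x (E y ep)) (wAjx b m τ1 ih y (E x ep)) (Nat.ble (Nat.succ y) x))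
    true (Nat.beq x y)

/-- A jump in the middle of a walk. -/
noncomputable def wAm (b m τ1 : Nat) (ih : List Nat → Nat → Nat → Bool) (w : List Nat) (y e : Nat) : Bool :=
  Bool.rec false
    (Nat.rec (motive := fun _ => Bool) (ih w 0 y) (fun n _ => ih w (Nat.succ n) y) (Nat.land e m))
    (Nat.ble τ1 (Nat.shiftRight e b))

/-- A letter of a walk, with its record `e`. -/
noncomputable def wAl (ep b m : Nat) (E : Nat → Nat → Nat) (τ1 : Nat) (ih : List Nat → Nat → Nat → Bool)
    (w w' : List Nat) (x y e : Nat) : Bool :=
  Bool.rec (wAm b m τ1 ih w y (E x ep))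
    (Nat.rec (motive := fun _ => Bool) (ih w' 0 y) (fun n _ => ih w' (Nat.succ n) y) (Nat.land e m))
    (Nat.ble τ1 (Nat.shiftRight e b))

/-- The walk after the gap, with the records read by name and letter: `τ1` bounds the age of records from below. -/
noncomputable def wAF (ep b m : Nat) (E : Nat → Nat → Nat) (τ1 : Nat) (fuel : Nat) : List Nat → Nat → Nat → Bool :=
  Nat.rec (motive := fun _ => List Nat → Nat → Nat → Bool) (fun _ _ _ => false)
    (fun _ ih w x y =>
      List.rec (motive := fun _ => Bool) (wAe ep b m E τ1 ih x y)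
        (fun h w' _ => wAl ep b m E τ1 ih w w' x y (E x h)) w) fuel

/-- A jump before the gap. -/
noncomputable def wBm (b m τ1 : Nat) (ih : Nat → List Nat → Nat → Bool) (p : Nat) (w : List Nat) (e : Nat) : Bool :=
  Bool.rec false
    (Nat.rec (motive := fun _ => Bool) (ih p w 0) (fun n _ => ih p w (Nat.succ n)) (Nat.land e m))
    (Nat.ble τ1 (Nat.shiftRight e b))

/-- A letter before the gap, with its record `e`. -/
noncomputable def wBl (ep b m : Nat) (E : Nat → Nat → Nat) (τ1 : Nat) (ih : Nat → List Nat → Nat → Bool)
    (p' : Nat) (w w' : List Nat) (x e : Nat) : Bool :=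
  Bool.rec (wBm b m τ1 ih (Nat.succ p') w (E x ep))
    (Nat.rec (motive := fun _ => Bool) (ih p' w' 0) (fun n _ => ih p' w' (Nat.succ n)) (Nat.land e m))
    (Nat.ble τ1 (Nat.shiftRight e b))

/-- At the gap. -/
noncomputable def wBg (ep b m : Nat) (E : Nat → Nat → Nat) (τ1 g v s fuel' : Nat) (w : List Nat) : Bool :=
  Bool.rec
    (List.rec (motive := fun _ => Bool) false
      (fun h w' _ => Bool.rec false (wAF ep b m E τ1 fuel' w' v s) (Nat.beq h g)) w)
    (wAF ep b m E τ1 fuel' w v s)
    (Nat.beq g ep)

/-- The walk before the gap; the gap comes after `p` more letters, it goes from `u` to `v` and has letter `g`. -/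
noncomputable def wBF (ep b m : Nat) (E : Nat → Nat → Nat) (τ1 g u v s : Nat) (fuel : Nat) : Nat → List Nat → Nat → Bool :=
  Nat.rec (motive := fun _ => Nat → List Nat → Nat → Bool) (fun _ _ _ => false)
    (fun fuel' ih p w x =>
      Nat.rec (motive := fun _ => Bool)
        (Bool.rec (wBm b m τ1 ih 0 w (E x ep)) (wBg ep b m E τ1 g v s fuel' w) (Nat.beq x u))
        (fun p' _ =>
          List.rec (motive := fun _ => Bool) false
            (fun h w' _ => wBl ep b m E τ1 ih p' w w' x (E x h)) w)
        p) fuel

/-- The check of a key defining a name. -/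
noncomputable def defKeyF (sz m : Nat) (pk : Nat → Nat) (x h e : Nat) : Bool :=
  (fun y => Bool.rec false
    (Bool.rec false (Nat.ble (Nat.succ x) y) (Nat.beq (pk y) (Nat.add (Nat.mul x sz) h)))
    (Nat.ble 1 y)) (Nat.land e m)

/-- The check of a key with a reason `r' + 1`. -/
noncomputable def scanKeyF (ep b m : Nat) (E : Nat → Nat → Nat) (W : Nat → List Nat) (nrel nW fuel bp mp bw mw : Nat)
    (x h e r' : Nat) : Bool :=
  (fun r2 =>
    (fun r3 =>
      (fun j s τ1 =>
        Bool.rec false
          (Bool.rec
            (Bool.rec false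
              (wBF ep b m E τ1 h (Nat.land e m) x s
                fuel (Nat.land r2 mp) (W j) s)
              (Nat.beq h ep))
            (wBF ep b m E τ1 h x (Nat.land e m) s
              fuel (Nat.land r2 mp) (W j) s)
            (Nat.beq (Nat.land r' 1) 0))
          (Bool.rec (Bool.rec false (Nat.beq s 0) (Nat.ble (Nat.succ j) nW)) true (Nat.ble (Nat.succ j) nrel)))
        (Nat.land r3 mw) (Nat.shiftRight r3 bw) (Nat.succ (Nat.shiftRight e b)))
      (Nat.shiftRight r2 bp))
    (Nat.shiftRight r' 1)

/-- The check of one key. -/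
noncomputable def checkKeyF (sz ep b m : Nat) (E : Nat → Nat → Nat) (W : Nat → List Nat) (nrel nW : Nat)
    (R : Nat → Nat → Nat) (pk : Nat → Nat) (fuel bp mp bw mw : Nat) (x h : Nat) : Bool :=
  (fun e =>
    Bool.rec
      (Nat.rec (motive := fun _ => Bool) (defKeyF sz m pk x h e)
        (fun r' _ => scanKeyF ep b m E W nrel nW fuel bp mp bw mw x h e r') (R x h))
      true
      (Nat.beq e 0))
    (E x h)

/-- The checks of all keys of a name. -/
noncomputable def rowKeysF (sz ep b m : Nat) (E : Nat → Nat → Nat) (W : Nat → List Nat) (nrel nW : Nat)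
    (R : Nat → Nat → Nat) (pk : Nat → Nat) (fuel bp mp bw mw : Nat) (x : Nat) : Bool :=
  allF (checkKeyF sz ep b m E W nrel nW R pk fuel bp mp bw mw x) 0 sz

/-- The check of a table at a point: closed, and the letters are invertible. -/
noncomputable def ptTableF (n ng : Nat) (T : Nat → Nat → Nat) (inv : Nat → Nat) (i : Nat) : Bool :=
  allF (fun g => fb (T i g) (fun y => bf (Nat.ble (Nat.succ y) n) (Nat.beq (T y (inv g)) i) false)) 0 ng

/-- The final check of a certificate at a point. -/
noncomputable def ptFinalF (ng ep b m : Nat) (T : Nat → Nat → Nat) (nm : Nat → Nat) (E : Nat → Nat → Nat) (fuel : Nat)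
    (i : Nat) : Bool :=
  allF (fun g => fb (nm i) (fun x => fb (T i g) (fun y => fb (nm y) (fun z => wAF ep b m E 1 fuel [g] x z)))) 0 ng

/-- Membership of an interval. -/
noncomputable def inIvF (iv : Nat × Nat) (x : Nat) : Bool :=
  bf (Nat.ble iv.1 x) (Nat.ble (Nat.succ x) iv.2) false

/-- For all the members of a list. -/
noncomputable def allLF {β : Type} (f : β → Bool) (l : List β) : Bool :=
  List.rec (motive := fun _ => Bool) true (fun a _ ih => bf (f a) ih false) l

/-- The check of the spanning tree at a point. -/
noncomputable def ptTreeF (T : Nat → Nat → Nat) (WL : Nat → List Nat) (nsub nW : Nat) (par gw : Nat → Nat)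
    (ivs : List (Nat × Nat)) (i : Nat) : Bool :=
  Bool.rec
    (bf (Nat.ble (Nat.succ (par i)) i)
      (bf (Nat.ble (Nat.succ (gw i)) nW)
        (bf (Nat.beq (walkF T (WL (gw i)) (par i)) i)
          (allLF (fun iv => bf (inIvF iv i)
            (bf (Nat.beq i iv.1) true (bf (Nat.ble (Nat.succ (gw i)) nsub) (Nat.ble iv.1 (par i)) false)) true) ivs)
          false) false) false)
    true (Nat.beq i 0)

/-- The check that words preserve the intervals, at a point. -/
noncomputable def ptOrbF (T : Nat → Nat → Nat) (subW : List (List Nat)) (ivs : List (Nat × Nat)) (i : Nat) : Bool :=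
  allLF (fun iv => bf (inIvF iv i) (allLF (fun w => inIvF iv (walkF T w i)) subW) true) ivs

/-- Macro letters: a column of the table holds the end of the walk along a word. -/
noncomputable def macF (T : Nat → Nat → Nat) (macs : List (Nat × List Nat)) (i : Nat) : Bool :=
  allLF (fun mb => Nat.beq (walkF T mb.2 i) (T i mb.1)) macs

/-- The checks at a point. -/
noncomputable def ptAllF (n : Nat) (T : Nat → Nat → Nat) (inv : Nat → Nat) (macs : List (Nat × List Nat))
    (R : List (List Nat)) (ng : Nat) (nm : Nat → Nat) (ep b m : Nat) (E : Nat → Nat → Nat) (fuel : Nat)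
    (WL : Nat → List Nat) (nsub nW : Nat) (par gw : Nat → Nat) (subW : List (List Nat)) (ivs : List (Nat × Nat))
    (i : Nat) : Bool :=
  bf (ptTableF n ng T inv i)
    (bf (macF T macs i)
      (bf (relsF T R i)
        (bf (ptFinalF ng ep b m T nm E fuel i)
          (bf (ptTreeF T WL nsub nW par gw ivs i) (ptOrbF T subW ivs i) false) false) false) false) false

/-- The power of a word at a point: `U` holds the values of the word, and the word has order dividing `p`. -/
noncomputable def ptPowF (T : Nat → Nat → Nat) (w : List Nat) (U : Nat → Nat) (p : Nat) (i : Nat) : Bool :=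
  bf (Nat.beq (walkF T w i) (U i))
    (Nat.beq (Nat.rec (motive := fun _ => Nat → Nat) (fun x => x) (fun _ ih x => fn (U x) ih) p i) i) false

end Cfsg.Agent.Lib.TC.Fast
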