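/-
The fast checks imply the checks of the certificates.
-/
import Cfsg.Agent.Lib.TC.Check
import Cfsg.Agent.Lib.TC.Fast.Defs

set_option autoImplicit false

namespace Cfsg.Agent.Lib.TC.Fast

theorem bf_eq (c a b : Bool) : bf c a b = bif' c a b := rfl

theorem fb_eq (x : ℕ) (k : ℕ → Bool) : fb x k = k x := by
  cases x <;> rfl

theorem fn_eq (x : ℕ) (k : ℕ → ℕ) : fn x k = k x := by
  cases x <;> rfl

theorem rec_force {β : Sort 1} (x : ℕ) (k : ℕ → β) :
    (Nat.rec (motive := fun _ => β) (k 0) (fun n _ => k (Nat.succ n)) x : β) = k x := by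
  cases x <;> rfl

theorem allF_eq (f : ℕ → Bool) (lo n : ℕ) : allF f lo n = allFrom f lo n := rfl

theorem allF_spec (f : ℕ → Bool) (lo n : ℕ) (h : allF f lo n = true) : ∀ i, i < n → f (lo + i) = true :=
  allFrom_spec f lo n h

theorem done_step {f : ℕ → Bool} {lo n lo' : ℕ} (h1 : Done f lo) (h2 : allF f lo n = true)
    (h3 : lo + n = lo') : Done f lo' := Done.step h1 h2 h3

theorem wordA_eq (l : List (List ℕ)) : wordA l = wordAt l := rfl

theorem walkF_eq (T : ℕ → ℕ → ℕ) (w : List ℕ) (i : ℕ) : walkF T w i = walk T w i := by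
  induction w generalizing i with
  | nil => rfl
  | cons g w ih =>
    show (Nat.rec (motive := fun _ => ℕ) (walkF T w 0) (fun n _ => walkF T w (Nat.succ n)) (T i g) : ℕ) = walk T w (T i g)
    rw [rec_force (T i g) (walkF T w), ih]

theorem relsF_eq (T : ℕ → ℕ → ℕ) (R : List (List ℕ)) (i : ℕ) : relsF T R i = relsOk T R i := by
  induction R with
  | nil => rfl
  | cons w R ih =>
    show bf (Nat.beq (walkF T w i) i) (relsF T R i) false = bif' (Nat.beq (walk T w i) i) (relsOk T R i) false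
    rw [walkF_eq, ih]; rfl

theorem ble_succ (a b : ℕ) : Nat.ble (Nat.succ a) b = Nat.blt a b := rfl

section Unfold

variable {b m τ1 ep : ℕ} {E : ℕ → ℕ → ℕ}

theorem wAjx_eq (ih : List ℕ → ℕ → ℕ → Bool) (y e : ℕ) :
    wAjx b m τ1 ih y e = Bool.rec false (ih [] (Nat.land e m) y) (Nat.ble τ1 (Nat.shiftRight e b)) := by
  unfold wAjx
  rw [show (Nat.rec (motive := fun _ => Bool) (ih [] 0 y) (fun n _ => ih [] (Nat.succ n) y) (Nat.land e m) : Bool) = _ from
    rec_force (Nat.land e m) (fun z => ih [] z y)]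

theorem wAjy_eq (ih : List ℕ → ℕ → ℕ → Bool) (x e : ℕ) :
    wAjy b m τ1 ih x e = Bool.rec false (ih [] x (Nat.land e m)) (Nat.ble τ1 (Nat.shiftRight e b)) := by
  unfold wAjy
  rw [show (Nat.rec (motive := fun _ => Bool) (ih [] x 0) (fun n _ => ih [] x (Nat.succ n)) (Nat.land e m) : Bool) = _ from
    rec_force (Nat.land e m) (fun z => ih [] x z)]

theorem wAm_eq (ih : List ℕ → ℕ → ℕ → Bool) (w : List ℕ) (y e : ℕ) :
    wAm b m τ1 ih w y e = Bool.rec false (ih w (Nat.land e m) y) (Nat.ble τ1 (Nat.shiftRight e b)) := by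
  unfold wAm
  rw [show (Nat.rec (motive := fun _ => Bool) (ih w 0 y) (fun n _ => ih w (Nat.succ n) y) (Nat.land e m) : Bool) = _ from
    rec_force (Nat.land e m) (fun z => ih w z y)]

theorem wAl_eq (ih : List ℕ → ℕ → ℕ → Bool) (w w' : List ℕ) (x y e : ℕ) :
    wAl ep b m E τ1 ih w w' x y e =
      Bool.rec (wAm b m τ1 ih w y (E x ep)) (ih w' (Nat.land e m) y) (Nat.ble τ1 (Nat.shiftRight e b)) := by
  unfold wAl
  rw [show (Nat.rec (motive := fun _ => Bool) (ih w' 0 y) (fun n _ => ih w' (Nat.succ n) y) (Nat.land e m) : Bool) = _ from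
    rec_force (Nat.land e m) (fun z => ih w' z y)]

theorem wBm_eq (ih : ℕ → List ℕ → ℕ → Bool) (p : ℕ) (w : List ℕ) (e : ℕ) :
    wBm b m τ1 ih p w e = Bool.rec false (ih p w (Nat.land e m)) (Nat.ble τ1 (Nat.shiftRight e b)) := by
  unfold wBm
  rw [show (Nat.rec (motive := fun _ => Bool) (ih p w 0) (fun n _ => ih p w (Nat.succ n)) (Nat.land e m) : Bool) = _ from
    rec_force (Nat.land e m) (fun z => ih p w z)]

theorem wBl_eq (ih : ℕ → List ℕ → ℕ → Bool) (p' : ℕ) (w w' : List ℕ) (x e : ℕ) :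
    wBl ep b m E τ1 ih p' w w' x e =
      Bool.rec (wBm b m τ1 ih (Nat.succ p') w (E x ep)) (ih p' w' (Nat.land e m)) (Nat.ble τ1 (Nat.shiftRight e b)) := by
  unfold wBl
  rw [show (Nat.rec (motive := fun _ => Bool) (ih p' w' 0) (fun n _ => ih p' w' (Nat.succ n)) (Nat.land e m) : Bool) = _ from
    rec_force (Nat.land e m) (fun z => ih p' w' z)]

end Unfold

section Walks

variable {sz ep b m : ℕ} {E : ℕ → ℕ → ℕ}

/-- Records by key, from records by name and letter. -/
def byKey (sz : ℕ) (E : ℕ → ℕ → ℕ) (k : ℕ) : ℕ := E (k / sz) (k % sz)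

theorem byKey_add (hh : ∀ x h, h < sz → byKey sz E (Nat.add (Nat.mul x sz) h) = E x h) (x h : ℕ) (hl : h < sz) :
    byKey sz E (Nat.add (Nat.mul x sz) h) = E x h := hh x h hl

theorem byKey_eq (x h : ℕ) (hl : h < sz) : byKey sz E (Nat.add (Nat.mul x sz) h) = E x h := by
  have hsz : 0 < sz := by omega
  have e1 : Nat.add (Nat.mul x sz) h = x * sz + h := rfl
  unfold byKey
  rw [e1]
  have e2 : (x * sz + h) % sz = h := by
    rw [Nat.mul_comm, Nat.mul_add_mod]
    exact Nat.mod_eq_of_lt hl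
  have e3 : (x * sz + h) / sz = x := by
    rw [Nat.mul_comm, Nat.mul_add_div hsz, Nat.div_eq_of_lt hl, Nat.add_zero]
  rw [e2, e3]

theorem wAF_eq (hep : ep < sz) (τ0 fuel : ℕ) :
    ∀ (w : List ℕ) (x y : ℕ), (∀ h ∈ w, h < sz) →
      wAF ep b m E (Nat.succ τ0) fuel w x y = wA sz ep b m (byKey sz E) τ0 fuel w x y := by
  induction fuel with
  | zero => intro w x y _; rfl
  | succ fuel ih =>
    intro w x y hw
    cases w with
    | nil =>
      have h0 : ∀ (u : ℕ) (x' y' : ℕ), wAF ep b m E (Nat.succ τ0) fuel [] x' y' = wA sz ep b m (byKey sz E) τ0 fuel [] x' y' :=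
        fun _ x' y' => ih [] x' y' (by simp)
      show wAe ep b m E (Nat.succ τ0) (wAF ep b m E (Nat.succ τ0) fuel) x y =
        (Bool.rec
          (Bool.rec
            (Bool.rec false (wA sz ep b m (byKey sz E) τ0 fuel [] x (Nat.land (byKey sz E (Nat.add (Nat.mul y sz) ep)) m))
              (Nat.blt τ0 (Nat.shiftRight (byKey sz E (Nat.add (Nat.mul y sz) ep)) b)))
            (Bool.rec false (wA sz ep b m (byKey sz E) τ0 fuel [] (Nat.land (byKey sz E (Nat.add (Nat.mul x sz) ep)) m) y)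
              (Nat.blt τ0 (Nat.shiftRight (byKey sz E (Nat.add (Nat.mul x sz) ep)) b)))
            (Nat.blt y x))
          true (Nat.beq x y) : Bool)
      rw [byKey_eq y ep hep, byKey_eq x ep hep]
      unfold wAe
      rw [wAjy_eq, wAjx_eq, h0 0, h0 0]
      rfl
    | cons g w' =>
      have hg : g < sz := hw g (by simp)
      have hw' : ∀ h ∈ w', h < sz := fun h hh => hw h (by simp [hh])
      show wAl ep b m E (Nat.succ τ0) (wAF ep b m E (Nat.succ τ0) fuel) (g :: w') w' x y (E x g) =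
        (Bool.rec
          (Bool.rec false (wA sz ep b m (byKey sz E) τ0 fuel (g :: w') (Nat.land (byKey sz E (Nat.add (Nat.mul x sz) ep)) m) y)
            (Nat.blt τ0 (Nat.shiftRight (byKey sz E (Nat.add (Nat.mul x sz) ep)) b)))
          (wA sz ep b m (byKey sz E) τ0 fuel w' (Nat.land (byKey sz E (Nat.add (Nat.mul x sz) g)) m) y)
          (Nat.blt τ0 (Nat.shiftRight (byKey sz E (Nat.add (Nat.mul x sz) g)) b)) : Bool)
      rw [byKey_eq x ep hep, byKey_eq x g hg, wAl_eq, wAm_eq, ih w' _ y hw', ih (g :: w') _ y hw]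
      rfl

theorem wBF_eq (hep : ep < sz) (τ0 g u v s fuel : ℕ) :
    ∀ (p : ℕ) (w : List ℕ) (x : ℕ), (∀ h ∈ w, h < sz) →
      wBF ep b m E (Nat.succ τ0) g u v s fuel p w x = wB sz ep b m (byKey sz E) τ0 g u v s fuel p w x := by
  induction fuel with
  | zero => intro p w x _; rfl
  | succ fuel ih =>
    intro p w x hw
    cases p with
    | zero =>
      show (Bool.rec (wBm b m (Nat.succ τ0) (wBF ep b m E (Nat.succ τ0) g u v s fuel) 0 w (E x ep))
          (wBg ep b m E (Nat.succ τ0) g v s fuel w) (Nat.beq x u) : Bool) =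
        (Bool.rec
          ((fun e => Bool.rec false (wB sz ep b m (byKey sz E) τ0 g u v s fuel 0 w (Nat.land e m)) (Nat.blt τ0 (Nat.shiftRight e b)))
            (byKey sz E (Nat.add (Nat.mul x sz) ep)))
          (Bool.rec
            (List.rec (motive := fun _ => Bool) false
              (fun h w' _ => Bool.rec false (wA sz ep b m (byKey sz E) τ0 fuel w' v s) (Nat.beq h g)) w)
            (wA sz ep b m (byKey sz E) τ0 fuel w v s)
            (Nat.beq g ep))
          (Nat.beq x u) : Bool)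
      rw [byKey_eq x ep hep, wBm_eq, ih 0 w _ hw]
      unfold wBg
      rw [wAF_eq hep τ0 fuel w v s hw]
      cases w with
      | nil => rfl
      | cons a w' =>
        have hw' : ∀ h ∈ w', h < sz := fun h hh => hw h (by simp [hh])
        show (Bool.rec _ (Bool.rec (Bool.rec false (wAF ep b m E (Nat.succ τ0) fuel w' v s) (Nat.beq a g)) _ _) _ : Bool) =
          (Bool.rec _ (Bool.rec (Bool.rec false (wA sz ep b m (byKey sz E) τ0 fuel w' v s) (Nat.beq a g)) _ _) _ : Bool)
        rw [wAF_eq hep τ0 fuel w' v s hw']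
        rfl
    | succ p' =>
      cases w with
      | nil => rfl
      | cons a w' =>
        have ha : a < sz := hw a (by simp)
        have hw' : ∀ h ∈ w', h < sz := fun h hh => hw h (by simp [hh])
        show wBl ep b m E (Nat.succ τ0) (wBF ep b m E (Nat.succ τ0) g u v s fuel) p' (a :: w') w' x (E x a) =
          (Bool.rec
            (Bool.rec false (wB sz ep b m (byKey sz E) τ0 g u v s fuel (Nat.succ p') (a :: w') (Nat.land (byKey sz E (Nat.add (Nat.mul x sz) ep)) m))
              (Nat.blt τ0 (Nat.shiftRight (byKey sz E (Nat.add (Nat.mul x sz) ep)) b)))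
            (wB sz ep b m (byKey sz E) τ0 g u v s fuel p' w' (Nat.land (byKey sz E (Nat.add (Nat.mul x sz) a)) m))
            (Nat.blt τ0 (Nat.shiftRight (byKey sz E (Nat.add (Nat.mul x sz) a)) b)) : Bool)
        rw [byKey_eq x ep hep, byKey_eq x a ha, wBl_eq, wBm_eq, ih p' w' _ hw', ih (Nat.succ p') (a :: w') _ hw]
        rfl

/-- The check of a key, fast and slow. -/
theorem checkKeyF_eq (hep : ep < sz) (pk : ℕ → ℕ) (W : ℕ → List ℕ) (R : ℕ → ℕ → ℕ)
    (hW : ∀ j, ∀ h ∈ W j, h < sz) (nrel nW fuel bp mp bw mw : ℕ) (x h : ℕ) (hh : h < sz) :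
    checkKeyF sz ep b m E W nrel nW R pk fuel bp mp bw mw x h =
      checkKey sz ep b m (byKey sz E) W nrel nW (byKey sz R) pk fuel bp mp bw mw (Nat.add (Nat.mul x sz) h) := by
  have hsz : 0 < sz := by omega
  have e2 : Nat.mod (Nat.add (Nat.mul x sz) h) sz = h := by
    show (x * sz + h) % sz = h
    rw [Nat.mul_comm, Nat.mul_add_mod]
    exact Nat.mod_eq_of_lt hh
  have e3 : Nat.div (Nat.add (Nat.mul x sz) h) sz = x := by
    show (x * sz + h) / sz = x
    rw [Nat.mul_comm, Nat.mul_add_div hsz, Nat.div_eq_of_lt hh, Nat.add_zero]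
  unfold checkKeyF checkKey
  dsimp only
  rw [byKey_eq x h hh, byKey_eq (E := R) x h hh]
  congr 1
  cases R x h with
  | zero =>
    show defKeyF sz m pk x h (E x h) = defKey sz m pk (Nat.add (Nat.mul x sz) h) (E x h)
    unfold defKeyF defKey
    dsimp only
    rw [e3]
    rfl
  | succ r' =>
    show scanKeyF ep b m E W nrel nW fuel bp mp bw mw x h (E x h) r' =
      scanKey sz ep b m (byKey sz E) W nrel nW fuel bp mp bw mw (Nat.add (Nat.mul x sz) h) (E x h) r'
    unfold scanKeyF scanKey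
    dsimp only
    rw [e2, e3]
    rw [wBF_eq hep _ _ _ _ _ _ _ _ _ (hW _), wBF_eq hep _ _ _ _ _ _ _ _ _ (hW _)]
    rfl

end Walks

theorem wordA_letters {words : List (List ℕ)} {sz : ℕ} (h : ∀ w ∈ words, ∀ g ∈ w, g < sz) :
    ∀ j, ∀ a ∈ wordA words j, a < sz := by
  intro j a ha
  rw [wordA_eq, wordAt_eq_getD] at ha
  by_cases hj : j < words.length
  · rw [List.getD_eq_getElem _ _ hj] at ha
    exact h _ (List.getElem_mem hj) a ha
  · rw [List.getD_eq_default _ _ (by omega)] at ha
    simp at ha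

/-- A field of a missing row. -/
theorem field_zero (a : ℕ) (s m : ℕ) (h : a = 0) : Nat.land (Nat.shiftRight a s) m = 0 := by
  subst h
  have : Nat.shiftRight 0 s = 0 := Nat.zero_shiftRight s
  rw [this]
  exact Nat.zero_and m

/-- An array from a tree, and where it vanishes. -/
theorem guard_zero_F (K k t : ℕ) (hk : K ≤ k) : (Bool.rec t 0 (Nat.ble K k) : ℕ) = 0 := by
  rw [Nat.ble_eq_true_of_le hk]

/-- The certificate of fast arrays. -/
@[reducible] def mkCert (sz ep b m : ℕ) (E : ℕ → ℕ → ℕ) (W : ℕ → List ℕ) (nrel nW K : ℕ) (R : ℕ → ℕ → ℕ) (pk : ℕ → ℕ)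
    (fuel bp mp bw mw : ℕ) : Cert where
  sz := sz
  ep := ep
  b := b
  m := m
  E := byKey sz E
  W := W
  nrel := nrel
  nW := nW
  K := K
  R := byKey sz R
  pk := pk
  fuel := fuel
  bp := bp
  mp := mp
  bw := bw
  mw := mw

theorem hcheck_of {sz ep b m : ℕ} {E : ℕ → ℕ → ℕ} {W : ℕ → List ℕ} {nrel nW N : ℕ} {R : ℕ → ℕ → ℕ} {pk : ℕ → ℕ}
    {fuel bp mp bw mw : ℕ} (hep : ep < sz) (hW : ∀ j, ∀ h ∈ W j, h < sz)
    (hk : ∀ x, x < N → rowKeysF sz ep b m E W nrel nW R pk fuel bp mp bw mw x = true) :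
    ∀ k, k < N * sz → (mkCert sz ep b m E W nrel nW (N * sz) R pk fuel bp mp bw mw).chk k = true := by
  intro k hkN
  have hsz : 0 < sz := by omega
  have hx : k / sz < N := Nat.div_lt_of_lt_mul (by rwa [Nat.mul_comm] at hkN)
  have hh : k % sz < sz := Nat.mod_lt _ hsz
  have h1 := allF_spec _ 0 sz (hk _ hx) (k % sz) hh
  rw [Nat.zero_add, checkKeyF_eq hep pk W R hW nrel nW fuel bp mp bw mw _ _ hh] at h1
  have e1 : Nat.add (Nat.mul (k / sz) sz) (k % sz) = k := by
    show k / sz * sz + k % sz = k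
    exact Nat.div_add_mod' k sz
  rw [e1] at h1
  exact h1

theorem hE_of {sz ep b m : ℕ} {E : ℕ → ℕ → ℕ} {W : ℕ → List ℕ} {nrel nW N : ℕ} {R : ℕ → ℕ → ℕ} {pk : ℕ → ℕ}
    {fuel bp mp bw mw : ℕ} (hsz : 0 < sz) (hE : ∀ x h, N ≤ x → E x h = 0) :
    ∀ k, N * sz ≤ k → (mkCert sz ep b m E W nrel nW (N * sz) R pk fuel bp mp bw mw).E k = 0 := by
  intro k hk
  show E (k / sz) (k % sz) = 0
  apply hE
  exact (Nat.le_div_iff_mul_le hsz).2 hk

section Points

variable {n ng : ℕ} {T : ℕ → ℕ → ℕ}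

theorem ptTableF_spec {inv : ℕ → ℕ} {i : ℕ} (h : ptTableF n ng T inv i = true) :
    ∀ g, g < ng → T i g < n ∧ T (T i g) (inv g) = i := by
  intro g hg
  have h1 := allF_spec _ 0 ng h g hg
  rw [Nat.zero_add] at h1
  change fb (T i g) (fun y => bf (Nat.ble (Nat.succ y) n) (Nat.beq (T y (inv g)) i) false) = true at h1
  rw [fb_eq] at h1
  obtain ⟨h2, h3⟩ := bif'_spec (c := Nat.ble (Nat.succ (T i g)) n) h1 rfl
  exact ⟨Nat.le_of_ble_eq_true h2, Nat.eq_of_beq_eq_true h3⟩

theorem allFrom_of_forall (f : ℕ → Bool) (lo m : ℕ) (h : ∀ i, i < m → f (lo + i) = true) : allFrom f lo m = true := by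
  induction m with
  | zero => rfl
  | succ m ih =>
    have h1 : f (Nat.add lo m) = true := h m (by omega)
    have h2 := ih (fun i hi => h i (by omega))
    show bif' (f (Nat.add lo m)) (allFrom f lo m) false = true
    rw [h1, h2]
    rfl

theorem ptTable_of {inv : ℕ → ℕ} {i : ℕ} (h : ∀ g, g < ng → T i g < n ∧ T (T i g) (inv g) = i) :
    ptTable n ng T inv i = true := by
  apply allFrom_of_forall
  intro g hg
  rw [Nat.zero_add]
  obtain ⟨h1, h2⟩ := h g hg
  have h3 : Nat.blt (T i g) n = true := by simpa [Nat.blt] using Nat.ble_eq_true_of_le h1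
  have h4 : Nat.beq (T (T i g) (inv g)) i = true := by rw [h2]; simp
  show bif' (Nat.blt (T i g) n) (Nat.beq (T (T i g) (inv g)) i) false = true
  rw [h3, h4]
  rfl

theorem ptFinalF_eq {ep b m sz : ℕ} (hep : ep < sz) (hng : ng ≤ sz) {nm : ℕ → ℕ} {E : ℕ → ℕ → ℕ} {fuel i : ℕ}
    (h : ptFinalF ng ep b m T nm E fuel i = true) :
    ptFinal ng T nm sz ep b m (byKey sz E) fuel i = true := by
  apply allFrom_of_forall
  intro g hg
  rw [Nat.zero_add]
  have h1 := allF_spec _ 0 ng h g hg
  rw [Nat.zero_add] at h1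
  change fb (nm i) (fun x => fb (T i g) (fun y => fb (nm y) (fun z => wAF ep b m E 1 fuel [g] x z))) = true at h1
  rw [fb_eq, fb_eq, fb_eq] at h1
  have h2 := wAF_eq (b := b) (m := m) (E := E) hep 0 fuel [g] (nm i) (nm (T i g)) (by
    intro a ha
    simp at ha
    omega)
  exact h2 ▸ h1

theorem ptTreeF_eq (WL : ℕ → List ℕ) (nsub nW : ℕ) (par gw : ℕ → ℕ) (ivs : List (ℕ × ℕ)) (i : ℕ) :
    ptTreeF T WL nsub nW par gw ivs i = ptTree T WL nsub nW par gw ivs i := by
  unfold ptTreeF ptTree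
  rw [walkF_eq]
  rfl

theorem ptOrbF_eq (subW : List (List ℕ)) (ivs : List (ℕ × ℕ)) (i : ℕ) :
    ptOrbF T subW ivs i = ptOrb T subW ivs i := by
  have : (fun iv => bf (inIvF iv i) (allLF (fun w => inIvF iv (walkF T w i)) subW) true) =
      (fun iv => bif' (inIv iv i) (allL (fun w => inIv iv (walk T w i)) subW) true) := by
    funext iv
    have : (fun w => inIvF iv (walkF T w i)) = (fun w => inIv iv (walk T w i)) := by
      funext w
      rw [walkF_eq]
      rfl
    rw [this]
    rfl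
  unfold ptOrbF ptOrb
  rw [this]
  rfl

/-- The expansion of a macro letter. -/
def expL (macs : List (ℕ × List ℕ)) (ng g : ℕ) : List ℕ :=
  if g < ng then [g] else (macs.lookup g).getD [g]

/-- The expansion of the macro letters of a word. -/
def expW (macs : List (ℕ × List ℕ)) (ng : ℕ) (w : List ℕ) : List ℕ :=
  w.flatMap (expL macs ng)

theorem macF_spec {macs : List (ℕ × List ℕ)} {i : ℕ} (h : macF T macs i = true) :
    ∀ mb ∈ macs, walk T mb.2 i = T i mb.1 := by
  intro mb hmb
  have h1 := allL_spec (f := fun mb : ℕ × List ℕ => Nat.beq (walkF T mb.2 i) (T i mb.1)) h mb hmb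
  rw [walkF_eq] at h1
  exact Nat.eq_of_beq_eq_true h1

theorem walk_lt (hT : ∀ i, i < n → ∀ g, g < ng → T i g < n) {w : List ℕ} (hw : ∀ g ∈ w, g < ng) :
    ∀ i, i < n → walk T w i < n := by
  induction w with
  | nil => intro i hi; exact hi
  | cons g w ih =>
    intro i hi
    rw [walk_cons]
    exact ih (fun a ha => hw a (by simp [ha])) _ (hT i hi g (hw g (by simp)))

theorem lookup_mem_F {macs : List (ℕ × List ℕ)} {g : ℕ} {b : List ℕ} (h : macs.lookup g = some b) : (g, b) ∈ macs := by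
  induction macs with
  | nil => simp at h
  | cons a macs ih =>
    obtain ⟨c, d⟩ := a
    by_cases hc : g = c
    · subst hc
      simp at h
      subst h
      simp
    · have hbeq : (g == c) = false := by simpa using hc
      have : macs.lookup g = some b := by
        rw [List.lookup_cons, hbeq] at h
        exact h
      exact List.mem_cons_of_mem _ (ih this)

theorem walk_expW {macs : List (ℕ × List ℕ)}
    (hT : ∀ i, i < n → ∀ g, g < ng → T i g < n)
    (hm : ∀ i, i < n → ∀ mb ∈ macs, walk T mb.2 i = T i mb.1)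
    (hml : ∀ mb ∈ macs, ∀ g ∈ mb.2, g < ng) {w : List ℕ}
    (hw : ∀ g ∈ w, g < ng ∨ (macs.lookup g).isSome = true) :
    ∀ i, i < n → walk T (expW macs ng w) i = walk T w i ∧ walk T w i < n := by
  induction w with
  | nil => intro i hi; exact ⟨rfl, hi⟩
  | cons g w ih =>
    intro i hi
    have hrest := ih (fun a ha => hw a (by simp [ha]))
    have hexp : expW macs ng (g :: w) = expL macs ng g ++ expW macs ng w := by
      simp [expW]
    rw [hexp, walk_append, walk_cons]
    have hstep : walk T (expL macs ng g) i = T i g ∧ T i g < n := by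
      unfold expL
      by_cases hg : g < ng
      · rw [if_pos hg]
        exact ⟨rfl, hT i hi g hg⟩
      · rw [if_neg hg]
        have hs := (hw g (by simp)).resolve_left hg
        obtain ⟨b, hb⟩ := Option.isSome_iff_exists.1 hs
        have hmem : (g, b) ∈ macs := lookup_mem_F hb
        rw [hb, Option.getD_some]
        have h1 := hm i hi (g, b) hmem
        refine ⟨h1, ?_⟩
        have h2 := walk_lt hT (hml (g, b) hmem) i hi
        rwa [h1] at h2
    rw [hstep.1]
    exact hrest _ hstep.2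

/-- All the checks, from the fast ones. -/
theorem ptAll_of {inv' inv : ℕ → ℕ} {macs : List (ℕ × List ℕ)} {R : List (List ℕ)} {nm : ℕ → ℕ} {sz ep b m : ℕ}
    {E : ℕ → ℕ → ℕ} {fuel : ℕ} {WL : ℕ → List ℕ} {nsub nW : ℕ} {par gw : ℕ → ℕ} {subW : List (List ℕ)}
    {ivs : List (ℕ × ℕ)} (hep : ep < sz) (hng : ng ≤ sz)
    (hinv : ∀ g, g < ng → inv' g = inv g)
    (hml : ∀ mb ∈ macs, ∀ g ∈ mb.2, g < ng)
    (hR : ∀ w ∈ R, ∀ g ∈ w, g < ng ∨ (macs.lookup g).isSome = true)
    (h : ∀ i, i < n → ptAllF n T inv' macs R ng nm ep b m E fuel WL nsub nW par gw subW ivs i = true) :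
    ∀ i, i < n → ptAll n T inv (R.map (expW macs ng)) ng nm sz ep b m (byKey sz E) fuel WL nsub nW par gw subW ivs i = true := by
  have hparts : ∀ i, i < n → ptTableF n ng T inv' i = true ∧ macF T macs i = true ∧ relsF T R i = true ∧
      ptFinalF ng ep b m T nm E fuel i = true ∧ ptTreeF T WL nsub nW par gw ivs i = true ∧
      ptOrbF T subW ivs i = true := by
    intro i hi
    have h0 := h i hi
    obtain ⟨h1, h0⟩ := bif'_spec (c := ptTableF n ng T inv' i) h0 rfl
    obtain ⟨h2, h0⟩ := bif'_spec (c := macF T macs i) h0 rfl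
    obtain ⟨h3, h0⟩ := bif'_spec (c := relsF T R i) h0 rfl
    obtain ⟨h4, h0⟩ := bif'_spec (c := ptFinalF ng ep b m T nm E fuel i) h0 rfl
    obtain ⟨h5, h6⟩ := bif'_spec (c := ptTreeF T WL nsub nW par gw ivs i) h0 rfl
    exact ⟨h1, h2, h3, h4, h5, h6⟩
  have hT : ∀ i, i < n → ∀ g, g < ng → T i g < n := fun i hi g hg =>
    (ptTableF_spec (hparts i hi).1 g hg).1
  have hm : ∀ i, i < n → ∀ mb ∈ macs, walk T mb.2 i = T i mb.1 := fun i hi =>
    macF_spec (hparts i hi).2.1
  intro i hi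
  obtain ⟨h1, _, h3, h4, h5, h6⟩ := hparts i hi
  have hrels : relsOk T (R.map (expW macs ng)) i = true := by
    have h7 : ∀ w ∈ R, walk T w i = i := by
      rw [relsF_eq] at h3
      exact relsOk_spec h3
    generalize hRe : R = R' at *
    have key : ∀ R'' : List (List ℕ), (∀ w ∈ R'', w ∈ R') → relsOk T (R''.map (expW macs ng)) i = true := by
      intro R''
      induction R'' with
      | nil => intro _; rfl
      | cons w R'' ih =>
        intro hsub
        have h8 := walk_expW hT hm hml (hR w (hsub w (by simp))) i hi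
        have h9 := h7 w (hsub w (by simp))
        have h10 := ih (fun a ha => hsub a (by simp [ha]))
        show bif' (Nat.beq (walk T (expW macs ng w) i) i) (relsOk T (R''.map (expW macs ng)) i) false = true
        rw [h8.1, h9, h10]
        simp [bif']
    exact key R' (fun _ h => h)
  have h4' := ptFinalF_eq hep hng h4
  rw [ptTreeF_eq] at h5
  rw [ptOrbF_eq] at h6
  have h1' : ptTable n ng T inv i = true := by
    apply ptTable_of
    intro g hg
    have := ptTableF_spec h1 g hg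
    rwa [hinv g hg] at this
  unfold ptAll and5
  rw [h1', hrels, h4', h5, h6]
  rfl

end Points

end Cfsg.Agent.Lib.TC.Fast
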