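/-
Orbits of permutation groups, evaluated with numbers forced to literals.
-/
import Cfsg.Agent.Lib.TC.Simple
import Cfsg.Agent.Lib.TC.Fast.Bridge

set_option autoImplicit false

namespace Cfsg.Agent.Lib.TC.Fast

/-- The walk along one entry `(pt, par, g)` of an orbit, first checking that `par` was seen and `pt` was not. -/
noncomputable def orbFoldF (T : ℕ → ℕ → ℕ) (W : ℕ → List ℕ) (nW n : ℕ) (es : List (ℕ × ℕ × ℕ)) : ℕ → Bool :=
  List.rec (motive := fun _ => ℕ → Bool) (fun _ => true)
    (fun e _ ih m =>
      bif' (bitOf m e.2.1)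
        (Bool.rec
          (bif' (Nat.blt e.2.2 nW)
            (bif' (Nat.blt e.1 n)
              (bif' (Nat.beq (walkF T (W e.2.2) e.2.1) e.1)
                (ih (Nat.lor m (Nat.shiftLeft (nat_lit 1) e.1))) false) false) false)
          false (bitOf m e.1))
        false) es

theorem orbFoldF_eq (T : ℕ → ℕ → ℕ) (W : ℕ → List ℕ) (nW n : ℕ) (es : List (ℕ × ℕ × ℕ)) (m : ℕ) :
    orbFoldF T W nW n es m = orbFold T W nW n es m := by
  induction es generalizing m with
  | nil => rfl
  | cons e es ih =>
    show bif' (bitOf m e.2.1)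
        (Bool.rec
          (bif' (Nat.blt e.2.2 nW)
            (bif' (Nat.blt e.1 n)
              (bif' (Nat.beq (walkF T (W e.2.2) e.2.1) e.1)
                (orbFoldF T W nW n es (Nat.lor m (Nat.shiftLeft (nat_lit 1) e.1))) false) false) false)
          false (bitOf m e.1))
        false =
      bif' (bitOf m e.2.1)
        (Bool.rec
          (bif' (Nat.blt e.2.2 nW)
            (bif' (Nat.blt e.1 n)
              (bif' (Nat.beq (walk T (W e.2.2) e.2.1) e.1)
                (orbFold T W nW n es (Nat.lor m (Nat.shiftLeft (nat_lit 1) e.1))) false) false) false)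
          false (bitOf m e.1))
        false
    rw [walkF_eq, ih]

/-- Walk along a word given in chunks: the depth of the kernel's recursion goes by the length of a chunk and the
number of chunks. -/
noncomputable def walkC (T : ℕ → ℕ → ℕ) (ws : List (List ℕ)) : ℕ → ℕ :=
  List.rec (motive := fun _ => ℕ → ℕ) (fun i => i)
    (fun ch _ ih i => Nat.rec (motive := fun _ => ℕ) (ih 0) (fun n _ => ih (Nat.succ n)) (walkF T ch i)) ws

theorem walkC_eq (T : ℕ → ℕ → ℕ) (ws : List (List ℕ)) (i : ℕ) : walkC T ws i = walk T ws.flatten i := by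
  induction ws generalizing i with
  | nil => rfl
  | cons ch ws ih =>
    show (Nat.rec (motive := fun _ => ℕ) (walkC T ws 0) (fun n _ => walkC T ws (Nat.succ n)) (walkF T ch i) : ℕ) = _
    rw [rec_force (walkF T ch i) (walkC T ws), ih, List.flatten_cons, walk_append, walkF_eq]

/-- Words in chunks walking to their start. -/
noncomputable def relsC (T : ℕ → ℕ → ℕ) (R : List (List (List ℕ))) (i : ℕ) : Bool :=
  List.rec (motive := fun _ => Bool) true
    (fun w _ ih => bf (Nat.beq (walkC T w i) i) ih false) R

theorem relsC_eq (T : ℕ → ℕ → ℕ) (R : List (List (List ℕ))) (i : ℕ) :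
    relsC T R i = relsOk T (R.map List.flatten) i := by
  induction R with
  | nil => rfl
  | cons w R ih =>
    show bf (Nat.beq (walkC T w i) i) (relsC T R i) false = bif' (Nat.beq (walk T w.flatten i) i) (relsOk T (R.map List.flatten) i) false
    rw [walkC_eq, ih]; rfl

/-- An element of a list of chunked words. -/
noncomputable def wordC (l : List (List (List ℕ))) : ℕ → List (List ℕ) :=
  List.rec (motive := fun _ => ℕ → List (List ℕ)) (fun _ => [])
    (fun h _ ih i => Nat.rec (motive := fun _ => List (List ℕ)) h (fun i' _ => ih i') i) l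

theorem wordC_flatten (l : List (List (List ℕ))) (i : ℕ) : (wordC l i).flatten = wordAt (l.map List.flatten) i := by
  induction l generalizing i with
  | nil => rfl
  | cons h l ih =>
    cases i with
    | zero => rfl
    | succ i => exact ih i

/-- Orbits with words in chunks. -/
noncomputable def orbFoldC (T : ℕ → ℕ → ℕ) (W : ℕ → List (List ℕ)) (nW n : ℕ) (es : List (ℕ × ℕ × ℕ)) : ℕ → Bool :=
  List.rec (motive := fun _ => ℕ → Bool) (fun _ => true)
    (fun e _ ih m =>
      bif' (bitOf m e.2.1)
        (Bool.rec
          (bif' (Nat.blt e.2.2 nW)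
            (bif' (Nat.blt e.1 n)
              (bif' (Nat.beq (walkC T (W e.2.2) e.2.1) e.1)
                (ih (Nat.lor m (Nat.shiftLeft (nat_lit 1) e.1))) false) false) false)
          false (bitOf m e.1))
        false) es

theorem orbFoldC_eq (T : ℕ → ℕ → ℕ) (W : ℕ → List (List ℕ)) (nW n : ℕ) (es : List (ℕ × ℕ × ℕ)) (m : ℕ) :
    orbFoldC T W nW n es m = orbFold T (fun g => (W g).flatten) nW n es m := by
  induction es generalizing m with
  | nil => rfl
  | cons e es ih =>
    show bif' (bitOf m e.2.1)
        (Bool.rec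
          (bif' (Nat.blt e.2.2 nW)
            (bif' (Nat.blt e.1 n)
              (bif' (Nat.beq (walkC T (W e.2.2) e.2.1) e.1)
                (orbFoldC T W nW n es (Nat.lor m (Nat.shiftLeft (nat_lit 1) e.1))) false) false) false)
          false (bitOf m e.1))
        false =
      bif' (bitOf m e.2.1)
        (Bool.rec
          (bif' (Nat.blt e.2.2 nW)
            (bif' (Nat.blt e.1 n)
              (bif' (Nat.beq (walk T (W e.2.2).flatten e.2.1) e.1)
                (orbFold T (fun g => (W g).flatten) nW n es (Nat.lor m (Nat.shiftLeft (nat_lit 1) e.1))) false) false) false)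
          false (bitOf m e.1))
        false
    rw [walkC_eq, ih]

theorem orbFoldC_eq' (T : ℕ → ℕ → ℕ) (l : List (List (List ℕ))) (off nW n : ℕ) (es : List (ℕ × ℕ × ℕ)) (m : ℕ) :
    orbFoldC T (fun g => wordC l (Nat.add g off)) nW n es m =
      orbFold T (fun g => wordAt (l.map List.flatten) (Nat.add g off)) nW n es m := by
  rw [orbFoldC_eq]
  congr 1
  funext g
  exact wordC_flatten l _

theorem relsC_drop (T : ℕ → ℕ → ℕ) (l : List (List (List ℕ))) (k i : ℕ) :
    relsC T (l.drop k) i = relsOk T ((l.map List.flatten).drop k) i := by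
  rw [relsC_eq, List.map_drop]

end Cfsg.Agent.Lib.TC.Fast
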